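import Cfsg.Agent.H364.UnitaryReg
import Cfsg.Agent.H491.Dp.PsuCyc
import Cfsg.Agent.H122.Cyc.Order
import Cfsg.Agent.S0280
import Cfsg.Agent.H37.HT.Fd

/-!
# Elements of `SU_n(q)` with one unitary coordinate of order `p ^ (m + 1)` (helper679, S4933, part (O), row `PSU_n(q)`)

`elt_su`: `p` odd, `p ∤ q`, `p ∣ |PSU_n(q)|`, `e` the order of `q ^ 2` modulo `p`, `p ^ (m + 1)` the exact power of `p` in
`q ^ (2 e) - 1`, `ω` of order `p ^ (m + 1)`: there is a `p`-element of `SU_n(q)` with eigenvalues `ω ^ k`, `k ∈ s`, such that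
exactly one `k ∈ s` is `1` modulo `p ^ m`.
-/

set_option autoImplicit false
set_option linter.unusedSectionVars false

open Polynomial Matrix

namespace Cfsg.Agent.H679.HT

open Cfsg Cfsg.Agent.H364.Unitary Cfsg.Agent.H37.HT
open Cfsg.Agent.LieClassical.HermBasic (mem_SU_iff)

section pows

variable {K : Type} [Field K]

/-- `x ^ c = x ^ (-q)` for `c = (N - 1) q` -/
theorem pow_c {x : K} {N q : ℕ} (hN : 1 ≤ N) (hx : x ^ N = 1) : x ^ ((N - 1) * q) = (x ^ q)⁻¹ := by
  have h1 : x ^ (N - 1) * x = 1 := by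
    rw [← pow_succ, Nat.sub_add_cancel hN, hx]
  have h2 : x ^ (N - 1) = x⁻¹ := eq_inv_of_mul_eq_one_left h1
  rw [pow_mul, h2, inv_pow]

/-- the residue of `c = (p ^ (m + 1) - 1) q` -/
theorem cast_c {p m q : ℕ} (hp : 0 < p) : (((p ^ (m + 1) - 1) * q : ℕ) : ZMod p) = -(q : ZMod p) := by
  rw [Nat.cast_mul, Nat.cast_sub (Nat.one_le_pow _ _ hp), Nat.cast_pow, ZMod.natCast_self, Nat.cast_one,
    zero_pow (Nat.succ_ne_zero m)]
  ring

end pows

variable {F : Type} [Field F] [Fintype F] {q : ℕ} {p : ℕ} [hp : Fact p.Prime]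

/-- an eigenvector gives a root of the characteristic polynomial -/
theorem root_of_eig {d : ℕ} (X : SU d F q) {l : AlgebraicClosure F} {v : Fin d → AlgebraicClosure F} (hv : v ≠ 0)
    (h : mK (AlgebraicClosure F) X *ᵥ v = l • v) :
    ((mat X).charpoly.map (algebraMap F (AlgebraicClosure F))).IsRoot l := by
  rw [IsRoot.def, ← Matrix.charpoly_map, Matrix.eval_charpoly]
  rw [← Matrix.exists_mulVec_eq_zero_iff]
  refine ⟨v, hv, ?_⟩
  rw [Matrix.sub_mulVec]
  change _ - mK (AlgebraicClosure F) X *ᵥ v = 0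
  rw [h, sub_eq_zero]
  simp

/-- and conversely -/
theorem eig_of_root {d : ℕ} (X : SU d F q) {l : AlgebraicClosure F} (h : aeval l (mat X).charpoly = 0) :
    ∃ v : Fin d → AlgebraicClosure F, v ≠ 0 ∧ mK (AlgebraicClosure F) X *ᵥ v = l • v := by
  have h1 : ((mat X).charpoly.map (algebraMap F (AlgebraicClosure F))).eval l = 0 := by
    rw [eval_map_algebraMap, h]
  rw [← Matrix.charpoly_map, Matrix.eval_charpoly, ← Matrix.exists_mulVec_eq_zero_iff] at h1
  obtain ⟨v, hv, h2⟩ := h1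
  refine ⟨v, hv, ?_⟩
  rw [Matrix.sub_mulVec, sub_eq_zero] at h2
  change _ = mK (AlgebraicClosure F) X *ᵥ v at h2
  rw [← h2]
  simp

/-- **the eigenvalues** -/
theorem roots_of_eig (hF : Fintype.card F = q ^ 2) {d m : ℕ} (hd : orderOf (-(q : ZMod p)) = d) {X : SU d F q}
    {ω : AlgebraicClosure F} (hω : IsPrimitiveRoot ω (p ^ (m + 1))) {v : Fin d → AlgebraicClosure F} (hv : v ≠ 0)
    (h : mK (AlgebraicClosure F) X *ᵥ v = ω • v) :
    ((mat X).charpoly.map (algebraMap F (AlgebraicClosure F))).roots =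
      (Multiset.range d).map fun j => ω ^ ((p ^ (m + 1) - 1) * q) ^ j := by
  set c := (p ^ (m + 1) - 1) * q with hc
  have hpp := hp.out
  have hN : 1 ≤ p ^ (m + 1) := Nat.one_le_pow _ _ hpp.pos
  have hpow : ∀ j, (ω ^ j) ^ (p ^ (m + 1)) = 1 := by
    intro j
    rw [← pow_mul, mul_comm, pow_mul, hω.pow_eq_one, one_pow]
  have heig : ∀ j : ℕ, ∃ w : Fin d → AlgebraicClosure F, w ≠ 0 ∧ mK (AlgebraicClosure F) X *ᵥ w = (ω ^ c ^ j) • w := by
    intro j
    induction j with
    | zero => exact ⟨v, hv, by simpa using h⟩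
    | succ j ih =>
      obtain ⟨w, hw, hw2⟩ := ih
      obtain ⟨w', hw', hw'2⟩ := exists_next (AlgebraicClosure F) hF X hw hw2
      refine ⟨w', hw', ?_⟩
      rw [hw'2, pow_succ c j, pow_mul ω, hc, pow_c hN (hpow _)]
  have hne : (mat X).charpoly.map (algebraMap F (AlgebraicClosure F)) ≠ 0 :=
    ((Matrix.charpoly_monic _).map _).ne_zero
  have hnd : ((Multiset.range d).map fun j => ω ^ c ^ j).Nodup := by
    refine Multiset.Nodup.map_on ?_ (Multiset.nodup_range d)
    have hω0 : ω ≠ 0 := hω.ne_zero (by positivity)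
    have key : ∀ a b : ℕ, a ≤ b → ω ^ a = ω ^ b → (a : ZMod p) = (b : ZMod p) := by
      intro a b hab hh
      have h1 : ω ^ (b - a) = 1 := by
        have h2 : ω ^ a * ω ^ (b - a) = ω ^ a * 1 := by
          rw [← pow_add, Nat.add_sub_cancel' hab, mul_one, hh]
        exact mul_left_cancel₀ (pow_ne_zero _ hω0) h2
      have h2 : p ∣ b - a := (dvd_pow_self p (Nat.succ_ne_zero m)).trans (hω.dvd_of_pow_eq_one _ h1)
      rw [← ZMod.natCast_eq_zero_iff, Nat.cast_sub hab, sub_eq_zero] at h2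
      exact h2.symm
    have key2 : ∀ i j, i ≤ j → j < d → ω ^ c ^ i = ω ^ c ^ j → i = j := by
      intro i j hij hj hh
      have h1 : ((c ^ i : ℕ) : ZMod p) = ((c ^ j : ℕ) : ZMod p) := by
        rcases le_total (c ^ i) (c ^ j) with h2 | h2
        · exact key _ _ h2 hh
        · exact (key _ _ h2 hh.symm).symm
      rw [Nat.cast_pow, Nat.cast_pow, hc, cast_c hpp.pos] at h1
      have h2 : (-(q : ZMod p)) ^ (j - i) = 1 := by
        have h3 : (-(q : ZMod p)) ≠ 0 := by
          intro h4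
          rw [h4, orderOf_eq_zero_iff'.2 (fun n hn => by rw [zero_pow hn.ne']; exact zero_ne_one)] at hd
          omega
        have h4 : (-(q : ZMod p)) ^ i * (-(q : ZMod p)) ^ (j - i) = (-(q : ZMod p)) ^ i * 1 := by
          rw [← pow_add, Nat.add_sub_cancel' hij, mul_one, h1]
        exact mul_left_cancel₀ (pow_ne_zero _ h3) h4
      rw [← orderOf_dvd_iff_pow_eq_one, hd] at h2
      rcases Nat.eq_zero_or_pos (j - i) with h5 | h5
      · omega
      · have := Nat.le_of_dvd h5 h2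
        omega
    intro i hi j hj hh
    rw [Multiset.mem_range] at hi hj
    rcases le_total i j with h1 | h1
    · exact key2 i j h1 hj hh
    · exact (key2 j i h1 hi hh.symm).symm
  symm
  refine Multiset.eq_of_le_of_card_le ((Multiset.le_iff_subset hnd).2 ?_) ?_
  · intro x hx
    obtain ⟨i, -, rfl⟩ := Multiset.mem_map.1 hx
    obtain ⟨w, hw, hw2⟩ := heig i
    rw [mem_roots hne]
    exact root_of_eig X hw hw2
  · rw [Multiset.card_map, Multiset.card_range]
    calc _ ≤ ((mat X).charpoly.map (algebraMap F (AlgebraicClosure F))).natDegree := card_roots' _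
      _ ≤ (mat X).charpoly.natDegree := natDegree_map_le
      _ = d := by rw [Matrix.charpoly_natDegree_eq_dim, Fintype.card_fin]

/-- the number of exponents which are `1` modulo `p ^ m` -/
theorem count_c {d m : ℕ} (hd : orderOf (-(q : ZMod p)) = d) (hd0 : 0 < d) (hm : 1 ≤ m) :
    (((Multiset.range d).map fun j => ((p ^ (m + 1) - 1) * q) ^ j).filter fun k => k % p ^ m = 1).card = 1 := by
  have hpp := hp.out
  set c := (p ^ (m + 1) - 1) * q with hc
  have h1 : 1 < p ^ m := Nat.one_lt_pow (by omega) hpp.one_lt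
  have key : ∀ j, j < d → (c ^ j % p ^ m = 1 ↔ j = 0) := by
    intro j hj
    constructor
    · intro h
      have h2 : c ^ j ≡ 1 [MOD p] := by
        have h3 : c ^ j ≡ 1 [MOD p ^ m] := by rw [Nat.ModEq, h, Nat.mod_eq_of_lt h1]
        exact h3.of_dvd (dvd_pow_self p (by omega))
      rw [← ZMod.natCast_eq_natCast_iff, Nat.cast_pow, hc, cast_c hpp.pos, Nat.cast_one, ← orderOf_dvd_iff_pow_eq_one,
        hd] at h2
      rcases Nat.eq_zero_or_pos j with h5 | h5
      · exact h5
      · have := Nat.le_of_dvd h5 h2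
        omega
    · rintro rfl
      rw [pow_zero, Nat.mod_eq_of_lt h1]
  rw [Multiset.filter_map, Multiset.card_map]
  have h2 : (Multiset.range d).filter ((fun k => k % p ^ m = 1) ∘ fun j => c ^ j) = {0} := by
    have h3 : (Multiset.range d).filter ((fun k => k % p ^ m = 1) ∘ fun j => c ^ j) =
        (Multiset.range d).filter (fun j => j = 0) := by
      refine Multiset.filter_congr ?_
      intro j hj
      rw [Multiset.mem_range] at hj
      exact key j hj
    rw [h3, Multiset.filter_eq']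
    rw [Multiset.count_eq_one_of_mem (Multiset.nodup_range d) (Multiset.mem_range.2 hd0)]
    rfl
  rw [h2, Multiset.card_singleton]

/-- the statement for one `n` -/
def Has (F : Type) [Field F] (n q p m : ℕ) (ω : AlgebraicClosure F) : Prop :=
  ∃ (t : SU n F q) (s : Multiset ℕ), IsP p t ∧
    ((mat t).charpoly.map (algebraMap F (AlgebraicClosure F))).roots = s.map (fun k => ω ^ k) ∧
      (s.filter fun k => k % p ^ m = 1).card = 1

/-- from an element of order `p ^ (m + 1)` in `SU_d(q)` -/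
theorem has_of_order (hF : Fintype.card F = q ^ 2) (hpF : (p : F) ≠ 0) {d m : ℕ} (hd : orderOf (-(q : ZMod p)) = d)
    (hd0 : 0 < d) (hm : 1 ≤ m) {ω : AlgebraicClosure F} (hω : IsPrimitiveRoot ω (p ^ (m + 1))) {X : SU d F q}
    (hX : orderOf X = p ^ (m + 1)) : Has F d q p m ω := by
  have hpp := hp.out
  have h1 : mat X ^ p ^ (m + 1) = 1 := by rw [← mat_pow, ← hX, pow_orderOf_eq_one, mat_one]
  have h2 : mat X ^ p ^ (m + 1 - 1) ≠ 1 := by
    rw [← mat_pow]
    intro h
    have h3 := mat_injective (h.trans mat_one.symm)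
    have h4 := orderOf_dvd_of_pow_eq_one h3
    rw [hX, Nat.add_sub_cancel] at h4
    have h5 := (Nat.pow_dvd_pow_iff_le_right hpp.one_lt).1 h4
    omega
  obtain ⟨l, hl, hlo⟩ := Cfsg.Agent.H122.Cyc.exists_root hpF (by omega) h1 h2
  obtain ⟨v, hv, hv2⟩ := eig_of_root X hl
  have hlp : IsPrimitiveRoot l (p ^ (m + 1)) := by rw [← hlo]; exact IsPrimitiveRoot.orderOf l
  have : NeZero (p ^ (m + 1)) := ⟨(pow_pos hpp.pos _).ne'⟩
  obtain ⟨k, -, hk⟩ := hlp.eq_pow_of_pow_eq_one hω.pow_eq_one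
  have hv3 : ∀ j : ℕ, mK (AlgebraicClosure F) (X ^ j) *ᵥ v = l ^ j • v := by
    intro j
    induction j with
    | zero => rw [pow_zero, mK_one, Matrix.one_mulVec, pow_zero, one_smul]
    | succ j ih =>
      rw [pow_succ, mK_mul, ← Matrix.mulVec_mulVec, hv2, Matrix.mulVec_smul, ih, smul_smul, pow_succ, mul_comm]
  refine ⟨X ^ k, (Multiset.range d).map fun j => ((p ^ (m + 1) - 1) * q) ^ j, ⟨m + 1, ?_⟩, ?_, count_c hd hd0 hm⟩
  · rw [← pow_mul, mul_comm, pow_mul, ← hX, pow_orderOf_eq_one, one_pow]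
  · rw [roots_of_eig hF hd hω hv (by rw [hv3, hk]), Multiset.map_map]
    rfl

/-- **adding trivial coordinates** -/
theorem Has.embed {k m : ℕ} {ω : AlgebraicClosure F} (h : Has F k q p m ω) {n : ℕ} (hn : k ≤ n) :
    Has F n q p m ω := by
  classical
  obtain ⟨r, rfl⟩ := Nat.exists_eq_add_of_le hn
  have hpp := hp.out
  obtain ⟨t, s, ⟨a, ha⟩, hs, hc⟩ := h
  let e : Fin k ⊕ Fin r ≃ Fin (k + r) := finSumFinEquiv
  let f : Matrix (Fin k) (Fin k) F → Matrix (Fin (k + r)) (Fin (k + r)) F := fun A =>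
    Matrix.reindex e e (Matrix.fromBlocks A 0 0 1)
  have hf1 : f 1 = 1 := by
    change Matrix.reindex e e (Matrix.fromBlocks 1 0 0 1) = 1
    rw [Matrix.fromBlocks_one, Matrix.reindex_apply, Matrix.submatrix_one_equiv]
  have hfm : ∀ A B, f (A * B) = f A * f B := by
    intro A B
    change Matrix.reindex e e _ = Matrix.reindex e e _ * Matrix.reindex e e _
    rw [Matrix.reindex_apply, Matrix.reindex_apply, Matrix.reindex_apply, Matrix.submatrix_mul_equiv,
      Matrix.fromBlocks_multiply]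
    simp
  have hdet : ∀ A, (f A).det = A.det := by
    intro A
    change (Matrix.reindex e e _).det = _
    rw [Matrix.det_reindex_self, Matrix.det_fromBlocks_zero₂₁, Matrix.det_one, mul_one]
  have hmv : ∀ (A : Matrix (Fin k) (Fin k) F) (u : Fin (k + r) → F),
      f A *ᵥ u = Fin.append (A *ᵥ fun i => u (Fin.castAdd r i)) (fun i => u (Fin.natAdd k i)) := by
    intro A u
    funext i
    have h1 : f A *ᵥ u = (Matrix.fromBlocks A 0 0 1 *ᵥ (u ∘ e)) ∘ e.symm := by
      change Matrix.reindex e e _ *ᵥ u = _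
      rw [Matrix.reindex_apply, Matrix.submatrix_mulVec_equiv]
      rfl
    rw [h1]
    have h2 : u ∘ e = Sum.elim (fun i => u (Fin.castAdd r i)) (fun i => u (Fin.natAdd k i)) := by
      funext x
      rcases x with x | x <;> simp [e]
    rw [h2, Matrix.fromBlocks_mulVec]
    refine Fin.addCases (fun j => ?_) (fun j => ?_) i
    · simp [e]
    · simp [e]
  have hherm : ∀ (A : Matrix (Fin k) (Fin k) F), (∀ u v, hermForm k F q (A *ᵥ u) (A *ᵥ v) = hermForm k F q u v) →
      ∀ u v, hermForm (k + r) F q (f A *ᵥ u) (f A *ᵥ v) = hermForm (k + r) F q u v := by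
    intro A hA u v
    rw [hmv, hmv, hermForm, Fin.sum_univ_add, hermForm, Fin.sum_univ_add]
    simp only [Fin.append_left, Fin.append_right]
    congr 1
    exact hA _ _
  have hmem := (mem_SU_iff (t : Matrix.SpecialLinearGroup (Fin k) F)).1 t.2
  let t₀ : Matrix.SpecialLinearGroup (Fin (k + r)) F := ⟨f (mat t), by rw [hdet]; exact mat_det t⟩
  let t' : SU (k + r) F q := ⟨t₀, (mem_SU_iff t₀).2 (hherm _ hmem)⟩
  have ht' : mat t' = f (mat t) := rfl
  refine ⟨t', s + Multiset.replicate r 0, ⟨a, ?_⟩, ?_, ?_⟩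
  · apply mat_injective
    rw [mat_pow, mat_one, ht']
    have h1 : ∀ j : ℕ, f (mat t) ^ j = f (mat t ^ j) := by
      intro j
      induction j with
      | zero => rw [pow_zero, pow_zero, hf1]
      | succ j ih => rw [pow_succ, pow_succ, hfm, ih]
    rw [h1, ← mat_pow, ha, mat_one, hf1]
  · rw [ht']
    have h1 : (f (mat t)).charpoly = (mat t).charpoly * (X - 1) ^ r := by
      change (Matrix.reindex e e _).charpoly = _
      rw [Matrix.charpoly_reindex, Matrix.charpoly_fromBlocks_zero₁₂, Matrix.charpoly_one, Fintype.card_fin]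
    rw [h1, Polynomial.map_mul, Polynomial.map_pow, Polynomial.map_sub, Polynomial.map_X, Polynomial.map_one,
      Polynomial.roots_mul, hs, Multiset.map_add, Multiset.map_replicate, pow_zero]
    · congr 1
      rw [← map_one (C : AlgebraicClosure F →+* _), Polynomial.roots_pow, Polynomial.roots_X_sub_C,
        Multiset.nsmul_singleton]
    · refine mul_ne_zero ((Matrix.charpoly_monic _).map _).ne_zero (pow_ne_zero _ ?_)
      rw [← map_one (C : AlgebraicClosure F →+* _)]
      exact X_sub_C_ne_zero 1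
  · rw [Multiset.filter_add, Multiset.card_add, hc]
    have h1 : (Multiset.replicate r 0).filter (fun k => k % p ^ m = 1) = 0 := by
      rw [Multiset.filter_eq_nil]
      intro x hx
      rw [Multiset.eq_of_mem_replicate hx, Nat.zero_mod]
      exact zero_ne_one
    rw [h1, Multiset.card_zero]

/-- the diagonal element, `p ∣ q + 1` -/
theorem has_two (hF : Fintype.card F = q ^ 2) (hp2 : p ≠ 2) {m : ℕ} (hm : 1 ≤ m) (hdvd : p ^ (m + 1) ∣ q + 1)
    {ω : AlgebraicClosure F} (hω : IsPrimitiveRoot ω (p ^ (m + 1))) : Has F 2 q p m ω := by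
  classical
  have hpp := hp.out
  have hp3 : 3 ≤ p := by
    have := hpp.two_le
    omega
  have hω1 : ω ^ (q + 1) = 1 := by
    obtain ⟨c, hc⟩ := hdvd
    rw [hc, pow_mul, hω.pow_eq_one, one_pow]
  obtain ⟨a, ha⟩ : ∃ a : F, algebraMap F (AlgebraicClosure F) a = ω := by
    obtain ⟨g₀, hg₀⟩ := IsCyclic.exists_ofOrder_eq_natCard (α := Fˣ)
    have h1 : p ^ (m + 1) ∣ orderOf g₀ := by
      rw [hg₀, Nat.card_units, Nat.card_eq_fintype_card, hF]
      refine hdvd.trans ⟨q - 1, ?_⟩
      have := Nat.sq_sub_sq q 1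
      rwa [one_pow] at this
    set b : Fˣ := g₀ ^ (orderOf g₀ / p ^ (m + 1)) with hb
    have hbo : orderOf b = p ^ (m + 1) := orderOf_pow_orderOf_div (orderOf_pos g₀).ne' h1
    have h2 : IsPrimitiveRoot (b : F) (p ^ (m + 1)) := by
      rw [← hbo]
      exact IsPrimitiveRoot.coe_units_iff.2 (IsPrimitiveRoot.orderOf b)
    have h3 := h2.map_of_injective (algebraMap F (AlgebraicClosure F)).injective
    have : NeZero (p ^ (m + 1)) := ⟨(pow_pos hpp.pos _).ne'⟩
    obtain ⟨i, -, hi⟩ := h3.eq_pow_of_pow_eq_one hω.pow_eq_one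
    exact ⟨(b : F) ^ i, by rw [map_pow, hi]⟩
  have haN : a ^ p ^ (m + 1) = 1 := by
    apply (algebraMap F (AlgebraicClosure F)).injective
    rw [map_pow, ha, hω.pow_eq_one, map_one]
  have haq : a ^ (q + 1) = 1 := by
    apply (algebraMap F (AlgebraicClosure F)).injective
    rw [map_pow, ha, hω1, map_one]
  have ha0 : a ≠ 0 := by
    rintro rfl
    rw [zero_pow (by omega)] at haq
    exact zero_ne_one haq
  have haq' : a * a ^ q = 1 := by rw [← pow_succ', haq]
  let D : Fin 2 → F := ![a, a⁻¹]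
  have hD : ∀ i, D i * D i ^ q = 1 := by
    intro i
    fin_cases i
    · exact haq'
    · change a⁻¹ * a⁻¹ ^ q = 1
      rw [inv_pow, ← mul_inv, haq', inv_one]
  let t₀ : Matrix.SpecialLinearGroup (Fin 2) F := ⟨Matrix.diagonal D, by
    rw [Matrix.det_diagonal, Fin.prod_univ_two]
    exact mul_inv_cancel₀ ha0⟩
  have ht₀ : t₀ ∈ SU 2 F q := by
    rw [mem_SU_iff]
    intro u v
    change hermForm 2 F q (Matrix.diagonal D *ᵥ u) (Matrix.diagonal D *ᵥ v) = _
    rw [hermForm, hermForm]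
    refine Finset.sum_congr rfl fun i _ => ?_
    rw [Matrix.mulVec_diagonal, Matrix.mulVec_diagonal, mul_pow]
    calc D i * u i * (D i ^ q * v i ^ q) = (D i * D i ^ q) * (u i * v i ^ q) := by ring
      _ = u i * v i ^ q := by rw [hD, one_mul]
  refine ⟨⟨t₀, ht₀⟩, {1, p ^ (m + 1) - 1}, ⟨m + 1, ?_⟩, ?_, ?_⟩
  · apply mat_injective
    rw [mat_pow, mat_one]
    change Matrix.diagonal D ^ _ = 1
    rw [Matrix.diagonal_pow, ← Matrix.diagonal_one]
    congr 1
    funext i
    fin_cases i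
    · exact haN
    · change a⁻¹ ^ _ = 1
      rw [inv_pow, haN, inv_one]
  · change ((Matrix.diagonal D).charpoly.map _).roots = _
    rw [Matrix.charpoly_diagonal, Fin.prod_univ_two, Polynomial.map_mul, Polynomial.map_sub, Polynomial.map_sub,
      Polynomial.map_X, Polynomial.map_C, Polynomial.map_C, Polynomial.roots_mul
        (mul_ne_zero (X_sub_C_ne_zero _) (X_sub_C_ne_zero _)), Polynomial.roots_X_sub_C, Polynomial.roots_X_sub_C]
    have h1 : D 0 = a := rfl
    have h2 : D 1 = a⁻¹ := rfl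
    have h3 : ω ^ (p ^ (m + 1) - 1) = ω⁻¹ := by
      have h4 := pow_c (q := 1) (Nat.one_le_pow (m + 1) _ hpp.pos) hω.pow_eq_one
      rwa [mul_one, pow_one] at h4
    rw [h1, h2, map_inv₀, ha, Multiset.insert_eq_cons, Multiset.map_cons, Multiset.map_singleton, pow_one, h3]
    rfl
  · have h1 : 3 ≤ p ^ m := by
      calc 3 ≤ p := hp3
        _ = p ^ 1 := (pow_one p).symm
        _ ≤ p ^ m := Nat.pow_le_pow_right hpp.pos hm
    have h2 : 1 % p ^ m = 1 := Nat.mod_eq_of_lt (by omega)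
    have h3 : (p ^ (m + 1) - 1) % p ^ m ≠ 1 := by
      intro h
      have h4 : (p ^ (m + 1) - 1) + 1 ≡ 1 + 1 [MOD p ^ m] := by
        apply Nat.ModEq.add_right
        rw [Nat.ModEq, h, h2]
      rw [Nat.sub_add_cancel (Nat.one_le_pow _ _ hpp.pos)] at h4
      have h5 : p ^ (m + 1) ≡ 0 [MOD p ^ m] := (Nat.modEq_zero_iff_dvd).2 (pow_dvd_pow p (by omega))
      have h6 := (h5.symm.trans h4)
      have h7 : p ^ m ∣ 2 := (Nat.modEq_zero_iff_dvd).1 h6.symm
      have := Nat.le_of_dvd (by omega) h7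
      omega
    rw [Multiset.insert_eq_cons, Multiset.filter_cons_of_pos (p := fun k => k % p ^ m = 1) _ h2,
      Multiset.filter_singleton, if_neg h3]
    rfl

/-- the order of `q ^ 2` -/
theorem ord_sq {d e : ℕ} (hd : orderOf (-(q : ZMod p)) = d) (he : orderOf ((q ^ 2 : ℕ) : ZMod p) = e) :
    e = d / Nat.gcd d 2 := by
  have h1 : ((q ^ 2 : ℕ) : ZMod p) = (-(q : ZMod p)) ^ 2 := by push_cast; ring
  rw [h1, orderOf_pow' _ two_ne_zero, hd] at he
  exact he.symm

/-- the exact power of `p` in the last factor -/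
theorem dvd_last {d e N : ℕ} (hp2 : p ≠ 2) (hq : 1 ≤ q) (hd : orderOf (-(q : ZMod p)) = d)
    (he : orderOf ((q ^ 2 : ℕ) : ZMod p) = e) (h : p ^ N ∣ (q ^ 2) ^ e - 1) :
    p ^ N ∣ (if Even d then q ^ d - 1 else q ^ d + 1) := by
  have hpp := hp.out
  rw [ord_sq hd he] at h
  split_ifs with hev
  · obtain ⟨k, rfl⟩ := hev
    have h1 : Nat.gcd (k + k) 2 = 2 := Nat.gcd_eq_right ⟨k, by ring⟩
    rw [h1, show (k + k) / 2 = k by omega, ← pow_mul, show 2 * k = k + k by ring] at h
    exact h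
  · have h1 : Nat.gcd d 2 = 1 := by
      rw [Nat.not_even_iff_odd] at hev
      exact Nat.Coprime.gcd_eq_one (Nat.coprime_comm.1 (Nat.coprime_two_left.2 hev))
    rw [h1, Nat.div_one, ← pow_mul, mul_comm 2 d, pow_mul] at h
    have h2 : (q ^ d) ^ 2 - 1 = (q ^ d + 1) * (q ^ d - 1) := by
      have := Nat.sq_sub_sq (q ^ d) 1
      rwa [one_pow] at this
    rw [h2] at h
    have h3 : ¬ p ∣ q ^ d - 1 := by
      intro h4
      rw [← ZMod.natCast_eq_zero_iff, Nat.cast_sub (Nat.one_le_pow _ _ hq), Nat.cast_pow, Nat.cast_one, sub_eq_zero]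
        at h4
      have h5 : (-(q : ZMod p)) ^ d = 1 := by rw [← hd, pow_orderOf_eq_one]
      rw [Nat.not_even_iff_odd] at hev
      rw [hev.neg_pow, h4] at h5
      have h6 : ((2 : ℕ) : ZMod p) = 0 := by
        push_cast
        linear_combination -h5
      rw [ZMod.natCast_eq_zero_iff] at h6
      exact hp2 ((Nat.prime_dvd_prime_iff_eq hpp Nat.prime_two).1 h6)
    exact ((Nat.Prime.coprime_iff_not_dvd hpp).2 h3).pow_left N |>.dvd_of_dvd_mul_right h

/-- `p ∤ q + 1` -/
theorem not_dvd_succ {d : ℕ} (hd : orderOf (-(q : ZMod p)) = d) (hd2 : 2 ≤ d) : ¬ p ∣ q + 1 := by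
  intro h
  rw [← ZMod.natCast_eq_zero_iff] at h
  push_cast at h
  have h1 : -(q : ZMod p) = 1 := by linear_combination -h
  rw [h1, orderOf_one] at hd
  omega

/-- the elements of order `p ^ N` in `SU_2(q)` -/
theorem exists_order_two (hF : Fintype.card F = q ^ 2) {N : ℕ} (h : p ^ N ∣ q - 1) :
    ∃ X : SU 2 F q, orderOf X = p ^ N := by
  classical
  have hpp := hp.out
  have hq2 : 2 ≤ q := Cfsg.Agent.LieClassical.HermBasic.two_le hF
  obtain ⟨K, _, _, hK⟩ := Cfsg.Agent.S0280.exists_field hF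
  obtain ⟨e⟩ := Cfsg.Agent.S0281.result hF hK
  obtain ⟨g₀, hg₀⟩ := IsCyclic.exists_ofOrder_eq_natCard (α := Kˣ)
  have h1 : p ^ N ∣ orderOf g₀ := by
    rw [hg₀, Nat.card_units, Nat.card_eq_fintype_card, hK]
    exact h
  set b : Kˣ := g₀ ^ (orderOf g₀ / p ^ N) with hb
  have hbo : orderOf b = p ^ N := orderOf_pow_orderOf_div (orderOf_pos g₀).ne' h1
  let D : Kˣ → Matrix.SpecialLinearGroup (Fin 2) K := fun x => ⟨Matrix.diagonal ![(x : K), ((x⁻¹ : Kˣ) : K)], by
    rw [Matrix.det_diagonal, Fin.prod_univ_two]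
    change (x : K) * ((x⁻¹ : Kˣ) : K) = 1
    rw [← Units.val_mul, mul_inv_cancel, Units.val_one]⟩
  have hD : ∀ x, ((D x : Matrix.SpecialLinearGroup (Fin 2) K) : Matrix (Fin 2) (Fin 2) K) =
      Matrix.diagonal ![(x : K), ((x⁻¹ : Kˣ) : K)] := fun x => rfl
  let f : Kˣ →* Matrix.SpecialLinearGroup (Fin 2) K :=
    { toFun := D
      map_one' := by
        apply Subtype.ext
        change Matrix.diagonal ![((1 : Kˣ) : K), (((1 : Kˣ)⁻¹ : Kˣ) : K)] = 1
        rw [← Matrix.diagonal_one]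
        congr 1
        funext i
        fin_cases i <;> simp
      map_mul' := fun x y => by
        apply Subtype.ext
        change Matrix.diagonal ![((x * y : Kˣ) : K), (((x * y)⁻¹ : Kˣ) : K)] =
          Matrix.diagonal ![(x : K), ((x⁻¹ : Kˣ) : K)] * Matrix.diagonal ![(y : K), ((y⁻¹ : Kˣ) : K)]
        rw [Matrix.diagonal_mul_diagonal]
        congr 1
        funext i
        fin_cases i
        · simp
        · simp [mul_comm] }
  have hf : Function.Injective f := by
    intro x y hxy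
    have h2 := congrArg (fun A : Matrix.SpecialLinearGroup (Fin 2) K => (A : Matrix (Fin 2) (Fin 2) K) 0 0) hxy
    apply Units.ext
    change (Matrix.diagonal ![(x : K), ((x⁻¹ : Kˣ) : K)]) 0 0 = (Matrix.diagonal ![(y : K), ((y⁻¹ : Kˣ) : K)]) 0 0 at h2
    simpa using h2
  refine ⟨e.symm (f b), ?_⟩
  rw [MulEquiv.orderOf_eq, orderOf_injective f hf, hbo]

/-- the elements of order `p ^ N` in `SU_d(q)` -/
theorem exists_order (hF : Fintype.card F = q ^ 2) (hp2 : p ≠ 2) (hpF : (p : F) ≠ 0) {d e N : ℕ}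
    (hd : orderOf (-(q : ZMod p)) = d) (hd2 : 2 ≤ d) (he : orderOf ((q ^ 2 : ℕ) : ZMod p) = e)
    (h : p ^ N ∣ (q ^ 2) ^ e - 1) : ∃ X : SU d F q, orderOf X = p ^ N := by
  have hpp := hp.out
  have hq2 : 2 ≤ q := Cfsg.Agent.LieClassical.HermBasic.two_le hF
  have h1 := dvd_last hp2 (by omega) hd he h
  have h2 := not_dvd_succ hd hd2
  rcases Nat.lt_or_ge 2 d with h3 | h3
  · have h4 : p ^ N ∣ Nat.card (SU d F q) := by
      have h5 := Cfsg.Agent.S0278.result hF d (by omega)
      have h6 : p ^ N ∣ (q + 1) * Nat.card (SU d F q) := by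
        rw [h5]
        refine Dvd.dvd.mul_left ?_ _
        refine dvd_trans ?_ (Finset.dvd_prod_of_mem _ (Finset.mem_range.2 (show d - 1 < d by omega)))
        rw [show d - 1 + 1 = d by omega]
        have h7 : Even (d - 1) ↔ ¬ Even d := by
          constructor
          · rintro ⟨a, ha⟩ ⟨b, hb⟩
            omega
          · intro h8
            rw [Nat.not_even_iff_odd] at h8
            obtain ⟨a, ha⟩ := h8
            exact ⟨a, by omega⟩
        by_cases h8 : Even d
        · rw [if_pos h8] at h1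
          rw [if_neg (fun h9 => (h7.1 h9) h8)]
          exact h1
        · rw [if_neg h8] at h1
          rw [if_pos (h7.2 h8)]
          exact h1
      exact (((Nat.Prime.coprime_iff_not_dvd hpp).2 h2).pow_left N).dvd_of_dvd_mul_left h6
    obtain ⟨A, hA⟩ := Sylow.exists_subgroup_card_pow_prime p h4
    let τ : A →* GL (Fin d) F := (Matrix.SpecialLinearGroup.toGL).comp ((SU d F q).subtype.comp A.subtype)
    have hτ : Function.Injective τ := by
      intro x y hxy
      apply Subtype.ext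
      apply mat_injective
      have h5 := congrArg (fun g : GL (Fin d) F => (g : Matrix (Fin d) (Fin d) F)) hxy
      exact h5
    have hcyc : IsCyclic A := by
      refine Cfsg.Agent.H491.Dp.PSU.isCyclic_of hF (e := d) h3 (by omega) hd ?_ hpF τ hτ ?_
      · exact IsPGroup.of_card hA
      · intro a
        have h5 := (mem_SU_iff ((a : SU d F q) : Matrix.SpecialLinearGroup (Fin d) F)).1 (a : SU d F q).2
        exact h5
    obtain ⟨g, hg⟩ := IsCyclic.exists_ofOrder_eq_natCard (α := A)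
    exact ⟨g, by rw [Subgroup.orderOf_coe, hg, hA]⟩
  · obtain rfl : d = 2 := by omega
    rw [if_pos even_two] at h1
    have h4 : q ^ 2 - 1 = (q + 1) * (q - 1) := by
      have := Nat.sq_sub_sq q 1
      rwa [one_pow] at this
    rw [h4] at h1
    exact exists_order_two hF ((((Nat.Prime.coprime_iff_not_dvd hpp).2 h2).pow_left N).dvd_of_dvd_mul_left h1)

/-- the order of `-q` is at most `n` -/
theorem ord_le (hF : Fintype.card F = q ^ 2) (hpq : ¬ p ∣ q) {n : ℕ} (hn : 2 ≤ n) (h : p ∣ Nat.card (PSU n F q)) :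
    0 < orderOf (-(q : ZMod p)) ∧ orderOf (-(q : ZMod p)) ≤ n := by
  have hpp := hp.out
  have hq2 : 2 ≤ q := Cfsg.Agent.LieClassical.HermBasic.two_le hF
  have h1 := Cfsg.Agent.S0280.result hF n hn
  have h2 : p ∣ q ^ (n * (n - 1) / 2) * ∏ i ∈ Finset.range n, (if Even i then q ^ (i + 1) + 1 else q ^ (i + 1) - 1) := by
    rw [← h1]
    exact (h.mul_left _).mul_left _
  rcases (hpp.dvd_mul).1 h2 with h3 | h3
  · exact absurd (hpp.dvd_of_dvd_pow h3) hpq
  · obtain ⟨i, hi, h4⟩ := (hpp.prime.dvd_finsetProd_iff _).1 h3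
    rw [Finset.mem_range] at hi
    have h5 : (-(q : ZMod p)) ^ (i + 1) = 1 := by
      split_ifs at h4 with h6
      · rw [← ZMod.natCast_eq_zero_iff] at h4
        push_cast at h4
        rw [h6.add_one.neg_pow]
        linear_combination -h4
      · rw [← ZMod.natCast_eq_zero_iff, Nat.cast_sub (Nat.one_le_pow _ _ (by omega))] at h4
        push_cast at h4
        rw [Nat.not_even_iff_odd] at h6
        rw [h6.add_one.neg_pow]
        linear_combination h4
    have h6 := orderOf_dvd_of_pow_eq_one h5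
    exact ⟨Nat.pos_of_dvd_of_pos h6 (by omega), (Nat.le_of_dvd (by omega) h6).trans (by omega)⟩

/-- **The element `y` of `SU_n(q)`** (the property `Elt p (q ^ 2) charpoly` of the frame of helper722). -/
theorem elt_su (hF : Fintype.card F = q ^ 2) (hp2 : p ≠ 2) (hpq : ¬ p ∣ q) {n : ℕ} (hn : 2 ≤ n)
    (h : p ∣ Nat.card (PSU n F q)) (e m : ℕ) (ω : AlgebraicClosure F) (_he : 0 < e)
    (ho : orderOf ((q ^ 2 : ℕ) : ZMod p) = e) (hm : 1 ≤ m) (h1 : p ^ (m + 1) ∣ (q ^ 2) ^ e - 1)
    (_h2 : ¬ p ^ (m + 2) ∣ (q ^ 2) ^ e - 1) (hω : IsPrimitiveRoot ω (p ^ (m + 1))) :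
    ∃ (t : SU n F q) (s : Multiset ℕ), IsP p t ∧
      ((((t : Matrix.SpecialLinearGroup (Fin n) F) : Matrix (Fin n) (Fin n) F).charpoly).map
        (algebraMap F (AlgebraicClosure F))).roots = s.map (fun k => ω ^ k) ∧
      ¬ p ∣ (s.filter fun k => k % p ^ m = 1).card := by
  have hpp := hp.out
  have hq2 : 2 ≤ q := Cfsg.Agent.LieClassical.HermBasic.two_le hF
  have hpF : (p : F) ≠ 0 := by
    intro h0
    obtain ⟨r, hr⟩ := CharP.exists F
    have hrp : r.Prime := CharP.char_is_prime F r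
    have : Fact r.Prime := ⟨hrp⟩
    obtain ⟨f, -, hf⟩ := FiniteField.card F r
    rw [CharP.cast_eq_zero_iff F r] at h0
    have h3 : r = p := (Nat.prime_dvd_prime_iff_eq hrp hpp).1 h0
    have h4 : r ∣ q ^ 2 := by
      rw [← hF, hf]
      exact dvd_pow_self r f.pos.ne'
    exact hpq (h3 ▸ hrp.dvd_of_dvd_pow h4)
  suffices hh : Has F n q p m ω by
    obtain ⟨t, s, a, b, c⟩ := hh
    refine ⟨t, s, a, b, ?_⟩
    rw [c]
    exact fun h => hpp.one_lt.ne' (Nat.dvd_one.1 h)
  obtain ⟨hd0, hdn⟩ := ord_le hF hpq hn h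
  obtain ⟨d, hd⟩ : ∃ d, orderOf (-(q : ZMod p)) = d := ⟨_, rfl⟩
  rw [hd] at hd0 hdn
  rcases Nat.lt_or_ge 1 d with h3 | h3
  · obtain ⟨X, hX⟩ := exists_order hF hp2 hpF hd h3 ho h1
    exact (has_of_order hF hpF hd hd0 hm hω hX).embed hdn
  · obtain rfl : d = 1 := by omega
    have h4 := dvd_last hp2 (by omega) hd ho h1
    rw [if_neg (by decide), pow_one] at h4
    exact (has_two hF hp2 hm h4 hω).embed hn

end Cfsg.Agent.H679.HT
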