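import Cfsg.Agent.H47.Fd.Base
import Cfsg.Agent.S0815
import Cfsg.Agent.S0283
import Cfsg.Agent.H183.OutPSU

/-!
# `|Out PSU_n(q)|` and its `p`-part (helper679, S4933, part (O), row `PSU_n(q)`)
-/

set_option autoImplicit false

namespace Cfsg.Agent.H679.HT

open Cfsg Cfsg.Agent.ClassicalGeometry.UnitAutBasic

/-- the centre of `PSU_n(q)` -/
theorem center_psu {F : Type*} [Field F] [Fintype F] {n q : ℕ} (hF : Fintype.card F = q ^ 2) (hn : 3 ≤ n)
    (h32 : ¬ (n = 3 ∧ q = 2)) : Subgroup.center (PSU n F q) = ⊥ := by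
  have hs : IsSimpleGroup (PSU n F q) := Cfsg.Agent.S0283.result hF n hn h32
  have h3 := Cfsg.Agent.LieClassical.HermPerfect.commutator_SU_eq_top hF hn h32
  have hperf : commutator (PSU n F q) = ⊤ := by
    have h4 : (commutator (SU n F q)).map (QuotientGroup.mk' (Subgroup.center (SU n F q))) = commutator (PSU n F q) := by
      rw [commutator_def, commutator_def, Subgroup.map_commutator, ← MonoidHom.range_eq_map,
        MonoidHom.range_eq_top.2 (QuotientGroup.mk'_surjective _)]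
    rw [← h4, h3, ← MonoidHom.range_eq_map]
    exact MonoidHom.range_eq_top.2 (QuotientGroup.mk'_surjective _)
  exact Cfsg.Agent.H183.OutPSU.center_eq_bot_of_perfect hperf

/-- **`|Out PSU_n(q)| = (n, q + 1) 2 f`** -/
theorem card_out_psu {F : Type*} [Field F] [Fintype F] {n q r f : ℕ} (hr : r.Prime) (hf : 0 < f) (hq : q = r ^ f)
    (hF : Fintype.card F = q ^ 2) (hn : 3 ≤ n) (h32 : ¬ (n = 3 ∧ q = 2)) :
    Nat.card (Out (PSU n F q)) = Nat.gcd n (q + 1) * (2 * f) := by
  have : Fact r.Prime := ⟨hr⟩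
  have h1 := Cfsg.Agent.S0815.result r f hf hq hF n hn h32
  rw [Cfsg.Agent.H47.Fd.card_mulAut (center_psu hF hn h32), mul_comm] at h1
  exact Nat.eq_of_mul_eq_mul_right Nat.card_pos h1

/-- **the `p`-part of `|Out PSU_n(q)|`** -/
theorem out_psu {F : Type*} [Field F] [Fintype F] {n q r f p : ℕ} (hr : r.Prime) (hf : 0 < f)
    (hq : q = r ^ f) (hF : Fintype.card F = q ^ 2) (hn : 3 ≤ n) (h32 : ¬ (n = 3 ∧ q = 2)) (h : ¬ p ∣ Nat.gcd n (q + 1)) :
    (Nat.card (Out (PSU n F q))).factorization p ≤ (2 * f).factorization p := by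
  have h0 : Nat.gcd n (q + 1) ≠ 0 := by
    intro h1
    have := Nat.eq_zero_of_gcd_eq_zero_right h1
    omega
  rw [card_out_psu hr hf hq hF hn h32, Nat.factorization_mul h0 (by omega), Finsupp.add_apply,
    Nat.factorization_eq_zero_of_not_dvd h, zero_add]

end Cfsg.Agent.H679.HT
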